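import Cfsg.Agent.H53.HC.Asm
import Cfsg.Agent.Characters.Central
import Cfsg.Agent.Characters.Linear

/-!
# Harish-Chandra induction over a character of the centre (S4816, helper491)

* `exists_prod_cen` : product of irreducible characters of commuting subgroups, compatible on the intersection;
* `exists_over_cen` : Clifford's theorem over a character of a normal subgroup and one of a central subgroup;
* `exists_irr_LJ` : the induced character of a cuspidal character of `L_J` in general position, with its values on the centre.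
-/

set_option autoImplicit false
set_option linter.unusedSectionVars false

open scoped ComplexConjugate
open Cfsg

namespace Cfsg.Agent.H491.RIM

open Cfsg.Agent.OddOrderCharacters.Clifford Cfsg.Agent.Characters Cfsg.Agent.H53.HC

section grp

variable {G : Type*} [Group G]

/-- **Product of irreducible characters of commuting subgroups.** -/
theorem exists_prod_cen [Finite G] {H K : Subgroup G} (hc : ∀ a ∈ H, ∀ b ∈ K, a * b = b * a)
    {α : H → ℂ} {β : K → ℂ} (hα : IsIrrCharacter H α) (hβ : IsIrrCharacter K β)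
    (hz : ∀ z : G, ∀ h1 : z ∈ H, ∀ h2 : z ∈ K, α ⟨z, h1⟩ * β ⟨z⁻¹, inv_mem h2⟩ = α 1 * β 1) :
    ∃ ψ : ↥(H ⊔ K) → ℂ, IsIrrCharacter _ ψ ∧
      ∀ (a : G) (ha : a ∈ H) (b : G) (hb : b ∈ K),
        ψ ⟨a * b, mul_mem (le_sup_left (b := K) ha) (le_sup_right (a := H) hb)⟩ = α ⟨a, ha⟩ * β ⟨b, hb⟩ := by
  classical
  have : Fintype G := Fintype.ofFinite G
  let f : H × K →* ↥(H ⊔ K) :=
    { toFun := fun x => ⟨x.1 * x.2, mul_mem (le_sup_left (b := K) x.1.2) (le_sup_right (a := H) x.2.2)⟩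
      map_one' := by
        apply Subtype.ext
        simp
      map_mul' := by
        rintro ⟨a, b⟩ ⟨c, d⟩
        apply Subtype.ext
        change (a * c : G) * (b * d) = (a * b) * (c * d)
        have := hc c c.2 b b.2
        calc (a * c : G) * (b * d) = a * (c * b) * d := by group
          _ = a * (b * c) * d := by rw [this]
          _ = (a * b) * (c * d) := by group }
  have hf : Function.Surjective f := by
    rintro ⟨x, hx⟩
    have hle : H ≤ Subgroup.normalizer (K : Set G) := by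
      intro a ha
      rw [Subgroup.mem_normalizer_iff]
      intro b
      constructor
      · intro hb
        rw [hc a ha b hb, mul_inv_cancel_right]
        exact hb
      · intro hb
        have h1 := hc a⁻¹ (inv_mem ha) _ hb
        have h2 : b = a * b * a⁻¹ := by
          have h3 : a⁻¹ * (a * b * a⁻¹) = (a * b * a⁻¹) * a⁻¹ := h1
          have h4 : b * a⁻¹ = (a * b * a⁻¹) * a⁻¹ := by rw [← h3]; group
          exact mul_right_cancel h4
        rw [h2]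
        exact hb
    have h1 : x ∈ ((H ⊔ K : Subgroup G) : Set G) := hx
    rw [Subgroup.coe_mul_of_left_le_normalizer_right _ _ hle] at h1
    obtain ⟨a, ha, b, hb, rfl⟩ := h1
    exact ⟨(⟨a, ha⟩, ⟨b, hb⟩), rfl⟩
  have hirr : IsIrrCharacter (H × K) (fun x => α x.1 * β x.2) := Cfsg.Agent.S0188.isIrr_outer hα hβ
  obtain ⟨ψ, hψ, hψf⟩ := Cfsg.Agent.OddOrderCharacters.PF9.Reducible.exists_of_surjective f hf hirr (by
    rintro ⟨a, b⟩ hab
    have h1 : (a : G) * b = 1 := congrArg Subtype.val hab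
    have h2 : (b : G) = (a : G)⁻¹ := (inv_eq_of_mul_eq_one_right h1).symm
    have haK : (a : G) ∈ K := by
      rw [← inv_mem_iff, ← h2]
      exact b.2
    have e1 : b = ⟨(a : G)⁻¹, inv_mem haK⟩ := Subtype.ext h2
    change α a * β b = α 1 * β 1
    rw [e1]
    exact hz a a.2 haK)
  exact ⟨ψ, hψ, fun a ha b hb => hψf (⟨a, ha⟩, ⟨b, hb⟩)⟩

/-- Action of a central element on an irreducible character. -/
theorem central_mul [Finite G] {χ : G → ℂ} (hχ : IsIrrCharacter G χ) {z : G} (hz : z ∈ Subgroup.center G) {c : ℂ}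
    (hc : χ z = χ 1 * c) (g : G) : χ (z * g) = c * χ g := by
  obtain ⟨n, ρ, hρ, rfl⟩ := hχ
  obtain ⟨d, hd⟩ := Cfsg.Agent.Characters.Central.exists_smul_of_comm ρ hρ (ρ z) fun g => by
    rw [← map_mul, ← map_mul, Subgroup.mem_center_iff.1 hz g]
  have h1 : ∀ g, LinearMap.trace ℂ _ (ρ (z * g)) = d * LinearMap.trace ℂ _ (ρ g) := fun g => by
    rw [map_mul, hd, smul_mul_assoc, one_mul, map_smul, smul_eq_mul]
  have hne : (LinearMap.trace ℂ _ (ρ 1)) ≠ 0 := Core.isIrr_apply_one_ne_zero (χ := fun g => LinearMap.trace ℂ _ (ρ g)) ⟨n, ρ, hρ, rfl⟩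
  have h2 := h1 1
  rw [mul_one] at h2
  have h3 : d * LinearMap.trace ℂ _ (ρ 1) = c * LinearMap.trace ℂ _ (ρ 1) := by
    rw [← h2]
    exact hc.trans (mul_comm _ _)
  have h4 : d = c := mul_right_cancel₀ hne h3
  rw [← h4]
  exact h1 g

/-- **Clifford's theorem** over a character of a normal subgroup and a linear character of a central subgroup. -/
theorem exists_over_cen [Finite G] {N P Z : Subgroup G} (hNP : N ≤ P) (hn : P ≤ Subgroup.normalizer (N : Set G))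
    (hZP : Z ≤ P) (hZc : ∀ z ∈ Z, ∀ g ∈ P, z * g = g * z) {θ : N → ℂ} (hθ : IsIrrCharacter N θ) (l : Z →* ℂˣ)
    (hl : ∀ z (h1 : z ∈ N) (h2 : z ∈ Z), θ ⟨z, h1⟩ = θ 1 * (l ⟨z, h2⟩ : ℂˣ)) :
    ∃ ψ : P → ℂ, IsIrrCharacter P ψ ∧ (∃ m : ℕ, 0 < m ∧ ψ 1 = m * θ 1) ∧
      (∀ (z : G) (hz : z ∈ Z) (g : G) (hg : g ∈ P), ψ ⟨z * g, mul_mem (hZP hz) hg⟩ = (l ⟨z, hz⟩ : ℂˣ) * ψ ⟨g, hg⟩) ∧
      ∃ (c : ℂ) (s : Finset (N → ℂ)), (∀ x : N, ψ ⟨x, hNP x.2⟩ = c * ∑ φ ∈ s, φ x) ∧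
        ∀ φ ∈ s, ∃ g ∈ P, ∀ x (hx : x ∈ N), ∃ hx' : g * x * g⁻¹ ∈ N, φ ⟨x, hx⟩ = θ ⟨g * x * g⁻¹, hx'⟩ := by
  classical
  have hc : ∀ a ∈ N, ∀ b ∈ Z, a * b = b * a := fun a ha b hb => (hZc b hb a (hNP ha)).symm
  have hβ : IsIrrCharacter Z (fun z => ((l z : ℂˣ) : ℂ)) := Cfsg.Agent.Characters.Linear.isIrrCharacter_hom l
  obtain ⟨θ', hθ', hval⟩ := exists_prod_cen hc hθ hβ (by
    intro z h1 h2
    rw [hl z h1 h2, map_one, mul_assoc, ← Units.val_mul, ← map_mul]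
    have e : (⟨z, h2⟩ * ⟨z⁻¹, inv_mem h2⟩ : Z) = 1 := Subtype.ext (mul_inv_cancel z)
    rw [e, map_one])
  have hval1 : ∀ a (ha : a ∈ N), θ' ⟨a, le_sup_left (b := Z) ha⟩ = θ ⟨a, ha⟩ := by
    intro a ha
    have h1 := hval a ha 1 (one_mem _)
    have e : (⟨a * 1, mul_mem (le_sup_left (b := Z) ha) (le_sup_right (a := N) (one_mem Z))⟩ : ↥(N ⊔ Z)) =
        ⟨a, le_sup_left (b := Z) ha⟩ := Subtype.ext (mul_one a)
    rw [e] at h1
    rw [h1]
    have e2 : (⟨1, one_mem Z⟩ : Z) = 1 := rfl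
    rw [e2, map_one, Units.val_one, mul_one]
  have hle : N ⊔ Z ≤ P := sup_le hNP hZP
  have hn' : P ≤ Subgroup.normalizer ((N ⊔ Z : Subgroup G) : Set G) := by
    have key : ∀ g ∈ P, ∀ x ∈ N ⊔ Z, g * x * g⁻¹ ∈ N ⊔ Z := by
      intro g hg x hx
      have h1 : N ⊔ Z ≤ (N ⊔ Z).comap (MulAut.conj g).toMonoidHom := by
        refine sup_le (fun a ha => ?_) (fun z hz => ?_)
        · exact le_sup_left (b := Z) ((Subgroup.mem_normalizer_iff.1 (hn hg) a).1 ha)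
        · refine le_sup_right (a := N) ?_
          show g * z * g⁻¹ ∈ Z
          rw [← hZc z hz g hg, mul_inv_cancel_right]
          exact hz
      exact h1 hx
    intro g hg
    rw [Subgroup.mem_normalizer_iff]
    intro x
    refine ⟨key g hg x, fun hx => ?_⟩
    have h1 := key g⁻¹ (inv_mem hg) _ hx
    rw [inv_inv] at h1
    have e : g⁻¹ * (g * x * g⁻¹) * g = x := by group
    rwa [e] at h1
  obtain ⟨ψ, hψ, ⟨m, hm, hm1⟩, c, s, hres, hs⟩ := exists_over hle hn' hθ'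
  have hone : θ' 1 = θ 1 := hval1 1 (one_mem _)
  -- the members of `s` over the centre
  have hsz : ∀ φ ∈ s, ∀ (a : G) (ha : a ∈ N) (z : G) (hz : z ∈ Z),
      φ ⟨a * z, mul_mem (le_sup_left (b := Z) ha) (le_sup_right (a := N) hz)⟩ =
        φ ⟨a, le_sup_left (b := Z) ha⟩ * (l ⟨z, hz⟩ : ℂˣ) := by
    intro φ hφ a ha z hz
    obtain ⟨g, hg, hgφ⟩ := hs φ hφ
    obtain ⟨h1, e1⟩ := hgφ (a * z) (mul_mem (le_sup_left (b := Z) ha) (le_sup_right (a := N) hz))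
    obtain ⟨h2, e2⟩ := hgφ a (le_sup_left (b := Z) ha)
    have ha' : g * a * g⁻¹ ∈ N := (Subgroup.mem_normalizer_iff.1 (hn hg) a).1 ha
    rw [e1, e2]
    have h3 := hval (g * a * g⁻¹) ha' z hz
    have h4 := hval1 (g * a * g⁻¹) ha'
    rw [← h4] at h3
    rw [← h3]
    congr 1
    apply Subtype.ext
    show g * (a * z) * g⁻¹ = g * a * g⁻¹ * z
    have h5 := hZc z hz g⁻¹ (inv_mem hg)
    calc g * (a * z) * g⁻¹ = g * a * (z * g⁻¹) := by group
      _ = g * a * (g⁻¹ * z) := by rw [h5]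
      _ = g * a * g⁻¹ * z := by group
  have hψz : ∀ z (hz : z ∈ Z), ψ ⟨z, hZP hz⟩ = ψ 1 * (l ⟨z, hz⟩ : ℂˣ) := by
    intro z hz
    have h1 := hres ⟨z, le_sup_right (a := N) hz⟩
    have h2 := hres 1
    have e : ψ ⟨((1 : ↥(N ⊔ Z)) : G), hle (1 : ↥(N ⊔ Z)).2⟩ = ψ 1 := rfl
    rw [e] at h2
    rw [h2, h1, mul_assoc, Finset.sum_mul]
    congr 1
    refine Finset.sum_congr rfl fun φ hφ => ?_
    have h3 := hsz φ hφ 1 (one_mem _) z hz
    have e3 : (⟨1 * z, mul_mem (le_sup_left (b := Z) (one_mem N)) (le_sup_right (a := N) hz)⟩ : ↥(N ⊔ Z)) =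
        ⟨z, le_sup_right (a := N) hz⟩ := Subtype.ext (one_mul z)
    rw [e3] at h3
    exact h3
  refine ⟨ψ, hψ, ⟨m, hm, by rw [hm1, hone]⟩, ?_, c, s.image fun φ a => φ ⟨a, le_sup_left (b := Z) a.2⟩, ?_, ?_⟩
  · intro z hz g hg
    have hzc : (⟨z, hZP hz⟩ : P) ∈ Subgroup.center P := by
      rw [Subgroup.mem_center_iff]
      intro y
      exact Subtype.ext (hZc z hz y y.2).symm
    exact central_mul hψ hzc (hψz z hz) ⟨g, hg⟩
  · intro x
    rw [hres ⟨x, le_sup_left (b := Z) x.2⟩, Finset.sum_image]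
    intro φ hφ φ' hφ' he
    funext y
    obtain ⟨y, hy⟩ := y
    have hyy : y ∈ ((N ⊔ Z : Subgroup G) : Set G) := hy
    have hNn : N ≤ Subgroup.normalizer (Z : Set G) := by
      intro a ha
      rw [Subgroup.mem_normalizer_iff]
      intro b
      constructor
      · intro hb
        rw [hc a ha b hb, mul_inv_cancel_right]
        exact hb
      · intro hb
        have h1 := hc a⁻¹ (inv_mem ha) _ hb
        have h3 : b * a⁻¹ = (a * b * a⁻¹) * a⁻¹ := by rw [← h1]; group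
        have h4 : b = a * b * a⁻¹ := mul_right_cancel h3
        rw [h4]
        exact hb
    rw [Subgroup.coe_mul_of_left_le_normalizer_right _ _ hNn] at hyy
    obtain ⟨a, ha, z, hz, rfl⟩ := hyy
    have h1 := hsz φ hφ a ha z hz
    have h2 := hsz φ' hφ' a ha z hz
    have h3 : φ ⟨a, le_sup_left (b := Z) ha⟩ = φ' ⟨a, le_sup_left (b := Z) ha⟩ := congrFun he ⟨a, ha⟩
    exact h1.trans ((congrArg (· * ((l ⟨z, hz⟩ : ℂˣ) : ℂ)) h3).trans h2.symm)
  · intro φ hφ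
    obtain ⟨φ', hφ', rfl⟩ := Finset.mem_image.1 hφ
    obtain ⟨g, hg, hgφ⟩ := hs φ' hφ'
    refine ⟨g, hg, fun x hx => ?_⟩
    have hx' : g * x * g⁻¹ ∈ N := (Subgroup.mem_normalizer_iff.1 (hn hg) x).1 hx
    obtain ⟨h1, e1⟩ := hgφ x (le_sup_left (b := Z) hx)
    exact ⟨hx', e1.trans (hval1 _ hx')⟩

end grp

section rgd

open CoxeterSystem Cfsg.Agent.ChevalleyStructure.CoxeterGeom Cfsg.Agent.Tits.Roots Cfsg.Agent.Tits.Core
  Cfsg.Agent.Tits.Exchange Cfsg.Agent.Nodes.Reps Cfsg.Agent.Nodes.BNOf Cfsg.Agent.Nodes.StabComb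
  Cfsg.Agent.Nodes.Bruhat Cfsg.Agent.Nodes.OppDec Cfsg.Agent.Nodes.LeviDec

variable {I W Y : Type*} [Fintype I] [DecidableEq I] [Group W] [Group Y] {M : CoxeterMatrix I}
  {cs : CoxeterSystem M W} {A : I → I → ℤ} {h : IsCartan M A} {p : ℕ} {T : Subgroup Y} {n : I → Y}
  {X : (I → ℤ) → Subgroup Y} (R : RGD cs h p T n X)

include R

theorem rp_mem_normalizer_LJ {J : Set I} {w : W} {g : Y} (hg : Rp cs R.nsys w g) (hw : Perm cs h J w) :
    g ∈ Subgroup.normalizer (LJ cs h T X J : Set Y) := by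
  have key : ∀ {w : W} {g : Y}, Rp cs R.nsys w g → Perm cs h J w → ∀ x ∈ LJ cs h T X J, g * x * g⁻¹ ∈ LJ cs h T X J := by
    intro w g hg hw x hx
    have h1 : LJ cs h T X J ≤ (LJ cs h T X J).comap (MulAut.conj g).toMonoidHom := by
      refine sup_le (fun t ht => ?_) (fun m hm => ?_)
      · exact T_le_LJ ((Subgroup.mem_normalizer_iff.1 hg.mem_normalizer t).1 ht)
      · exact MJ_le_LJ J (conj_mem_MJ' R hg hw hm)
    exact h1 hx
  rw [Subgroup.mem_normalizer_iff]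
  intro x
  refine ⟨key hg hw x, fun hx => ?_⟩
  have h1 := key hg.inv (⟨by rw [inv_inv]; exact hw.2, hw.1⟩ : Perm cs h J w⁻¹) _ hx
  have e : g⁻¹ * (g * x * g⁻¹) * g⁻¹⁻¹ = x := by group
  rwa [e] at h1

/-- **The induced character**, with its values on the centre. -/
theorem exists_irr_gen [Finite W] [Fintype Y] (hG : GG cs h T X = ⊤) (J : Set I) {Z : Subgroup Y}
    (hZc : Z ≤ Subgroup.center Y) (hZT : Z ≤ T) (l : Z →* ℂˣ) {ψ : ↥(LJ cs h T X J) → ℂ} (hψ : IsIrrCharacter _ ψ)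
    (hψZ : ∀ z (hz : z ∈ Z), ψ ⟨z, T_le_LJ (hZT hz)⟩ = ψ 1 * (l ⟨z, hz⟩ : ℂˣ))
    (hc : ∀ i ∈ J, ∀ [Fintype (rad cs h X J i)], ∑ u : rad cs h X J i, ψ ⟨u, rad_le_LJ J i u.2⟩ = 0)
    (hs : ∀ w g, Rp cs R.nsys w g → w ∉ WJ cs J → Perm cs h J w →
      ∃ (L : Subgroup Y) (hL : L ≤ LJ cs h T X J) (hL' : ∀ l ∈ L, g⁻¹ * l * g ∈ LJ cs h T X J),
        ∀ [Fintype L], ∑ l : L, ψ ⟨l, hL l.2⟩ * conj (ψ ⟨g⁻¹ * l * g, hL' l l.2⟩) = 0) :
    ∃ χ : Y → ℂ, IsIrrCharacter Y χ ∧ χ 1 = (PJ cs h T X J).index * ψ 1 ∧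
      ∀ z (hz : z ∈ Z), χ z = χ 1 * (l ⟨z, hz⟩ : ℂˣ) := by
  classical
  obtain ⟨ψ', hψ', hψL, hψV⟩ := exists_infl R J hψ
  have h1 : ψ' 1 = ψ 1 := hψL 1 (one_mem _)
  have hind1 : indFun (PJ cs h T X J) ψ' 1 = (PJ cs h T X J).index * ψ 1 := by rw [indFun_one, h1]
  refine ⟨indFun (PJ cs h T X J) ψ', ?_, hind1, ?_⟩
  · refine isIrr_indFun_rgd R hG J hψ' hψV ?_ ?_
    · intro i hi hf
      rw [← hc i hi]
      exact Finset.sum_congr rfl fun u _ => hψL _ (rad_le_LJ J i u.2)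
    · intro w g hg hw hp
      obtain ⟨L, hL, hL', h0⟩ := hs w g hg hw hp
      refine ⟨L, hL.trans LJ_le_PJ, fun l hl => LJ_le_PJ (hL' l hl), ?_⟩
      intro hf
      rw [← h0]
      refine Finset.sum_congr rfl fun x _ => ?_
      rw [hψL _ (hL x.2), hψL _ (hL' x x.2)]
  · intro z hz
    have hzP : z ∈ PJ cs h T X J := LJ_le_PJ (T_le_LJ (hZT hz))
    have hzc : ∀ g : Y, g⁻¹ * z * g = z := fun g => by
      rw [Subgroup.mem_center_iff.1 (hZc hz) g⁻¹, inv_mul_cancel_right]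
    have h2 : ∀ g : Y, extendByZero (PJ cs h T X J) ψ' (g⁻¹ * z * g) = ψ' ⟨z, hzP⟩ := fun g => by
      rw [hzc g]
      exact ext_apply_mem (PJ cs h T X J) ψ' z hzP
    have h3 : ∀ g : Y, extendByZero (PJ cs h T X J) ψ' (g⁻¹ * 1 * g) = ψ' 1 := fun g => by
      rw [mul_one, inv_mul_cancel]
      exact ext_apply_mem (PJ cs h T X J) ψ' 1 (one_mem _)
    rw [indFun_apply, indFun_apply, Finset.sum_congr rfl fun g _ => h2 g, Finset.sum_congr rfl fun g _ => h3 g,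
      Finset.sum_const, Finset.sum_const, nsmul_eq_mul, nsmul_eq_mul, hψL z (T_le_LJ (hZT hz)), hψZ z hz, h1]
    ring

/-- **A cuspidal character of `L_J`** in general position. -/
theorem exists_irr_LJ [Finite W] [Fintype Y] (hG : GG cs h T X = ⊤) (J : Set I) {Z : Subgroup Y}
    (hZc : Z ≤ Subgroup.center Y) (hZT : Z ≤ T) (l : Z →* ℂˣ) {ψ : ↥(LJ cs h T X J) → ℂ} (hψ : IsIrrCharacter _ ψ)
    (hψZ : ∀ z (hz : z ∈ Z), ψ ⟨z, T_le_LJ (hZT hz)⟩ = ψ 1 * (l ⟨z, hz⟩ : ℂˣ))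
    (hc : ∀ i ∈ J, ∀ [Fintype (rad cs h X J i)], ∑ u : rad cs h X J i, ψ ⟨u, rad_le_LJ J i u.2⟩ = 0)
    (hs : ∀ w g (hg : Rp cs R.nsys w g), w ∉ WJ cs J → ∀ hw : Perm cs h J w,
      ψ ∘ conjME (LJ cs h T X J) (rp_mem_normalizer_LJ R hg hw) ≠ ψ) :
    ∃ χ : Y → ℂ, IsIrrCharacter Y χ ∧ χ 1 = (PJ cs h T X J).index * ψ 1 ∧
      ∀ z (hz : z ∈ Z), χ z = χ 1 * (l ⟨z, hz⟩ : ℂˣ) := by
  refine exists_irr_gen R hG J hZc hZT l hψ hψZ hc ?_
  intro w g hg hw hp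
  have hgn := rp_mem_normalizer_LJ R hg hp
  have hgn' := inv_mem hgn
  have hmem : ∀ l ∈ LJ cs h T X J, g⁻¹ * l * g ∈ LJ cs h T X J := fun l hl => by
    have := (Subgroup.mem_normalizer_iff.1 hgn' l).1 hl
    rwa [inv_inv] at this
  refine ⟨LJ cs h T X J, le_rfl, hmem, ?_⟩
  intro hf
  have hne : ψ ≠ ψ ∘ conjME (LJ cs h T X J) hgn' := by
    intro he
    apply hs w g hg hw hp
    funext x
    have h2 := congrFun he (conjME (LJ cs h T X J) hgn x)
    rw [Function.comp_apply] at h2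
    rw [Function.comp_apply, h2]
    congr 1
    apply Subtype.ext
    simp only [conjME_coe]
    group
  have hi3 : IsIrrCharacter _ (ψ ∘ conjME (LJ cs h T X J) hgn') :=
    Core.isIrr_comp (conjME _ hgn').toMonoidHom (MulEquiv.surjective _) hψ
  have h4 := Core.classInner_irr_ne hψ hi3 hne
  rw [Core.classInner_def, mul_eq_zero] at h4
  rcases h4 with h4 | h4
  · exact absurd (inv_eq_zero.1 h4) Core.card_ne_zero_complex
  · rw [← h4]
    refine Finset.sum_congr rfl fun x _ => ?_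
    rw [Function.comp_apply]
    congr 3
    apply Subtype.ext
    rw [conjME_coe, inv_inv]

/-- **A cuspidal character of `M_J`** in general position. -/
theorem exists_irr_MJ [Finite W] [Fintype Y] (hG : GG cs h T X = ⊤) (J : Set I) {Z : Subgroup Y}
    (hZc : Z ≤ Subgroup.center Y) (hZT : Z ≤ T) (l : Z →* ℂˣ) {θ : ↥(MJ cs h X J) → ℂ} (hθ : IsIrrCharacter _ θ)
    (hl : ∀ z (h1 : z ∈ MJ cs h X J) (h2 : z ∈ Z), θ ⟨z, h1⟩ = θ 1 * (l ⟨z, h2⟩ : ℂˣ))
    (hc : ∀ i ∈ J, ∀ [Fintype (rad cs h X J i)], ∑ u : rad cs h X J i, θ ⟨u, rad_le_MJ J i u.2⟩ = 0)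
    (hs : ∀ w g (hg : Rp cs R.nsys w g), w ∉ WJ cs J → ∀ hw : Perm cs h J w,
      ∃ (m : Y) (hm : m ∈ MJ cs h X J), θ ⟨g⁻¹ * m * g, conj_mem_MJ R hg hw hm⟩ ≠ θ ⟨m, hm⟩) :
    ∃ χ : Y → ℂ, IsIrrCharacter Y χ ∧ (∃ k : ℕ, 0 < k ∧ χ 1 = (PJ cs h T X J).index * (k * θ 1)) ∧
      ∀ z (hz : z ∈ Z), χ z = χ 1 * (l ⟨z, hz⟩ : ℂˣ) := by
  classical
  obtain ⟨ψ, hψ, ⟨k, hk, hk1⟩, hψz, c, s, hres, hsφ⟩ := exists_over_cen (MJ_le_LJ (T := T) J)
    (LJ_le_normalizer_MJ R J) (hZT.trans T_le_LJ) (fun z hz g _ => (Subgroup.mem_center_iff.1 (hZc hz) g).symm) hθ l hl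
  have hψ1 : ∀ z (hz : z ∈ Z), ψ ⟨z, T_le_LJ (hZT hz)⟩ = ψ 1 * (l ⟨z, hz⟩ : ℂˣ) := by
    intro z hz
    have h1 := hψz z hz 1 (one_mem _)
    rw [mul_comm (ψ 1)]
    refine Eq.trans ?_ h1
    congr 1
    exact Subtype.ext (mul_one z).symm
  -- the conjugates are conjugates under the torus
  have hsT : ∀ φ ∈ s, ∃ t, ∃ ht : t ∈ T, φ = θ ∘ conjME (MJ cs h X J) (T_le_normalizer_MJ R J ht) := by
    intro φ hφ
    obtain ⟨g, hg, hgφ⟩ := hsφ φ hφ
    obtain ⟨m, hm, t, ht, rfl⟩ := (mem_LJ_iff_mul' R J).1 hg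
    refine ⟨t, ht, ?_⟩
    funext x
    obtain ⟨hx', e⟩ := hgφ x x.2
    rw [e, Function.comp_apply]
    have h1 := Core.isIrr_isClassFunction hθ (conjME (MJ cs h X J) (T_le_normalizer_MJ R J ht) x) ⟨m, hm⟩
    rw [← h1]
    congr 1
    apply Subtype.ext
    simp only [conjME_coe, Subgroup.coe_mul, InvMemClass.coe_inv]
    group
  obtain ⟨χ, hχ, hχ1, hχZ⟩ := exists_irr_gen R hG J hZc hZT l hψ hψ1 (by
    intro i hi hf
    have h1 : ∀ u : rad cs h X J i, ψ ⟨u, rad_le_LJ J i u.2⟩ = c * ∑ φ ∈ s, φ ⟨u, rad_le_MJ J i u.2⟩ :=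
      fun u => hres ⟨u, rad_le_MJ J i u.2⟩
    rw [Finset.sum_congr rfl fun u _ => h1 u, ← Finset.mul_sum, Finset.sum_comm]
    rw [Finset.sum_eq_zero, mul_zero]
    intro φ hφ
    obtain ⟨t, ht, rfl⟩ := hsT φ hφ
    rw [← hc i hi]
    exact Fintype.sum_equiv (conjME (rad cs h X J i) (T_le_normalizer_rad R J i ht)).toEquiv _ _ fun u => rfl) (by
    intro w g hg hw hp
    have hgn := inv_mem (rp_mem_normalizer_MJ R hg hp)
    refine ⟨MJ cs h X J, MJ_le_LJ J, fun l hl => MJ_le_LJ J (conj_mem_MJ R hg hp hl), ?_⟩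
    intro hf
    have h1 : ∀ l : MJ cs h X J, ψ ⟨l, MJ_le_LJ J l.2⟩ *
        conj (ψ ⟨g⁻¹ * l * g, MJ_le_LJ J (conj_mem_MJ R hg hp l.2)⟩) =
        ∑ φ ∈ s, ∑ φ' ∈ s, (c * conj c) * (φ l * conj ((φ' ∘ conjME (MJ cs h X J) hgn) l)) := by
      intro l
      have e2 : (⟨g⁻¹ * l * g, conj_mem_MJ R hg hp l.2⟩ : MJ cs h X J) = conjME (MJ cs h X J) hgn l := by
        apply Subtype.ext
        rw [conjME_coe, inv_inv]
      have e3 := hres ⟨g⁻¹ * l * g, conj_mem_MJ R hg hp l.2⟩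
      rw [hres l, e3, e2, map_mul, map_sum]
      simp only [← Finset.mul_sum, Function.comp_apply]
      rw [← Finset.sum_mul]
      ring
    rw [Finset.sum_congr rfl fun l _ => h1 l, Finset.sum_comm]
    refine Finset.sum_eq_zero fun φ hφ => ?_
    rw [Finset.sum_comm]
    refine Finset.sum_eq_zero fun φ' hφ' => ?_
    rw [← Finset.mul_sum]
    obtain ⟨t, ht, rfl⟩ := hsT φ hφ
    obtain ⟨t', ht', rfl⟩ := hsT φ' hφ'
    have hne : θ ∘ conjME (MJ cs h X J) (T_le_normalizer_MJ R J ht) ≠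
        (θ ∘ conjME (MJ cs h X J) (T_le_normalizer_MJ R J ht')) ∘ conjME (MJ cs h X J) hgn := by
      intro he
      have hg' : Rp cs R.nsys w (t * g * t'⁻¹) := by
        have h2 := ((rp_of_mem (cs := cs) (hN := R.nsys) ht).mul hg).mul
          (rp_of_mem (cs := cs) (hN := R.nsys) (inv_mem ht'))
        rwa [one_mul, mul_one] at h2
      obtain ⟨m, hm, hne⟩ := hs w _ hg' hw hp
      apply hne
      have h3 := congrFun he (conjME (MJ cs h X J) (inv_mem (T_le_normalizer_MJ R J ht)) ⟨m, hm⟩)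
      simp only [Function.comp_apply] at h3
      refine Eq.trans ?_ (h3.symm.trans ?_)
      · congr 1
        apply Subtype.ext
        simp only [conjME_coe]
        group
      · congr 1
        apply Subtype.ext
        simp only [conjME_coe]
        group
    have hi1 : IsIrrCharacter _ (θ ∘ conjME (MJ cs h X J) (T_le_normalizer_MJ R J ht)) :=
      Core.isIrr_comp (conjME _ (T_le_normalizer_MJ R J ht)).toMonoidHom (MulEquiv.surjective _) hθ
    have hi2 : IsIrrCharacter _ (θ ∘ conjME (MJ cs h X J) (T_le_normalizer_MJ R J ht')) :=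
      Core.isIrr_comp (conjME _ (T_le_normalizer_MJ R J ht')).toMonoidHom (MulEquiv.surjective _) hθ
    have hi3 : IsIrrCharacter _ ((θ ∘ conjME (MJ cs h X J) (T_le_normalizer_MJ R J ht')) ∘
        conjME (MJ cs h X J) hgn) :=
      Core.isIrr_comp (conjME _ hgn).toMonoidHom (MulEquiv.surjective _) hi2
    have h4 := Core.classInner_irr_ne hi1 hi3 hne
    rw [Core.classInner_def, mul_eq_zero] at h4
    rcases h4 with h4 | h4
    · exact absurd (inv_eq_zero.1 h4) Core.card_ne_zero_complex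
    · rw [mul_eq_zero]
      exact Or.inr h4)
  exact ⟨χ, hχ, ⟨k, hk, by rw [hχ1, hk1]⟩, hχZ⟩

end rgd

end Cfsg.Agent.H491.RIM
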