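import Cfsg.Agent.H622.Levi.Constit
import Cfsg.Agent.H622.Levi.Semi
import Cfsg.Agent.H53.HC.Gal
import Cfsg.Agent.H139.Cusp.Bridge
import Cfsg.Agent.H105.Og.Arith

/-!
# Cuspidal characters of `SL_n(F)` over the characters of the centre (S4816, helper491)

`exists_sl` : for `n ≥ 3` and every linear character `μ` of the centre of `SL_n(F)` there is a cuspidal irreducible character
of degree `∏_{0<i<n} (q^i - 1)` over `μ` which is invariant under no automorphism `x ↦ C (x^τ)^{-T} C⁻¹`.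
-/

set_option autoImplicit false
set_option linter.unusedSectionVars false

namespace Cfsg.Agent.H491.RIM

section num

open Finset

theorem dvd_of_gcd {N g m e x : ℕ} (hg0 : 0 < g) (hm : g * m = N) (hg : Nat.gcd e N ∣ g) (h : N ∣ e * x) : m ∣ x := by
  have h1 : N ∣ Nat.gcd e N * x := by
    rw [← Nat.gcd_mul_right]
    exact Nat.dvd_gcd h (dvd_mul_right _ _)
  have h2 : N ∣ g * x := h1.trans (Nat.mul_dvd_mul_right hg x)
  rw [← hm] at h2
  exact Nat.dvd_of_mul_dvd_mul_left hg0 h2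

/-- exponents with a prescribed residue and a small greatest common divisor with `N` -/
theorem exists_exp {N g : ℕ} (hN : 1 < N) (hg : g ∣ N) (e : ℕ) :
    ∃ e', e' ≠ 0 ∧ e' ≡ e [MOD g] ∧ Nat.gcd e' N ∣ g := by
  have hg0 : 0 < g := Nat.pos_of_dvd_of_pos hg (by omega)
  have hd0 : 0 < Nat.gcd e g := Nat.gcd_pos_of_pos_right _ hg0
  obtain ⟨d, u, g₁, hd, hcop, he, hgg⟩ := Nat.exists_coprime' (m := e) (n := g) hd0
  have hd' : d = Nat.gcd e g := by
    rw [he, hgg, Nat.gcd_mul_right, hcop, one_mul]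
  have hg1 : g₁ ∣ N := (Dvd.intro _ hgg.symm).trans hg
  have hN0 : NeZero N := ⟨by omega⟩
  obtain ⟨v, hv⟩ := ZMod.unitsMap_surjective hg1 (ZMod.unitOfCoprime u hcop)
  have hvN : Nat.Coprime (v : ZMod N).val N := ZMod.val_coe_unit_coprime v
  have hvu : (v : ZMod N).val ≡ u [MOD g₁] := by
    have h1 := congrArg Units.val hv
    rw [ZMod.unitsMap_val, ZMod.coe_unitOfCoprime] at h1
    rw [← ZMod.natCast_eq_natCast_iff, ← h1]
    exact (ZMod.cast_eq_val (v : ZMod N)).symm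
  refine ⟨(v : ZMod N).val * d, ?_, ?_, ?_⟩
  · refine mul_ne_zero ?_ (by omega)
    intro h0
    rw [h0, Nat.coprime_zero_left] at hvN
    omega
  · rw [he, hgg]
    exact Nat.ModEq.mul_right' d hvu
  · have h1 : Nat.gcd ((v : ZMod N).val * d) N = Nat.gcd d N := Nat.Coprime.gcd_mul_left_cancel d hvN
    rw [h1]
    exact (Nat.gcd_dvd_left _ _).trans (hd' ▸ Nat.gcd_dvd_right e g)

theorem pow_lt_geom {q n : ℕ} (hn : 2 ≤ n) : q ^ (n - 1) < ∑ i ∈ range n, q ^ i := by
  obtain ⟨k, rfl⟩ : ∃ k, n = k + 2 := ⟨n - 2, by omega⟩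
  rw [Finset.sum_range_succ, Finset.sum_range_succ', pow_zero]
  have : k + 2 - 1 = k + 1 := by omega
  rw [this]
  omega

theorem num1 {q n m g : ℕ} (hq : 2 ≤ q) (hn : 3 ≤ n) (hm : g * m = ∑ i ∈ range n, q ^ i) (hg : g ∣ q - 1)
    (i : ℕ) (hi : 0 < i) (hin : i < n) : ¬ m ∣ q ^ i - 1 := by
  intro h
  have hgle : g ≤ q - 1 := Nat.le_of_dvd (by omega) hg
  have h1 : m ∣ q ^ n - 1 := by
    rw [← geom_sum_mul_of_one_le (by omega : 1 ≤ q) n, ← hm]
    exact (dvd_mul_left m g).mul_right _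
  have h2 : m ∣ q ^ Nat.gcd n i - 1 := by
    rw [← Nat.pow_sub_one_gcd_pow_sub_one]
    exact Nat.dvd_gcd h1 h
  set t := Nat.gcd n i with ht
  have ht0 : 0 < t := Nat.gcd_pos_of_pos_right _ hi
  have hti : t ≤ i := Nat.gcd_le_right _ hi
  have ht2 : 2 * t ≤ n := by
    obtain ⟨c, hc⟩ : t ∣ n := Nat.gcd_dvd_left _ _
    have : 2 ≤ c := by
      by_contra hlt
      have : c = 0 ∨ c = 1 := by omega
      rcases this with rfl | rfl
      · omega
      · omega
    calc 2 * t ≤ c * t := Nat.mul_le_mul_right t this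
      _ = n := by rw [hc, mul_comm]
  have h3 : 1 < q ^ t := Nat.one_lt_pow ht0.ne' (by omega)
  have h4 : m ≤ q ^ t - 1 := Nat.le_of_dvd (by omega) h2
  have h5 := pow_lt_geom (q := q) (n := n) (by omega)
  rw [← hm] at h5
  have h6 : g * m ≤ (q - 1) * (q ^ t - 1) := Nat.mul_le_mul hgle h4
  have h7 : (q - 1) * (q ^ t - 1) ≤ q * q ^ t := Nat.mul_le_mul (by omega) (by omega)
  have h8 : q * q ^ t ≤ q ^ (n - 1) := by
    rw [← pow_succ']
    exact Nat.pow_le_pow_right (by omega) (by omega)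
  omega

theorem num_red {p K m : ℕ} (hK : 0 < K) (h1 : p ^ K ≡ 1 [MOD m]) {e : ℕ} (he : m ∣ p ^ e + 1) :
    ∃ e₁, m ∣ p ^ e₁ + 1 ∧ 2 * e₁ ≤ K := by
  have h2 : m ∣ p ^ (e % K) + 1 := by
    have h2 : p ^ e ≡ p ^ (e % K) [MOD m] := by
      conv_lhs => rw [← Nat.div_add_mod e K, pow_add, pow_mul]
      have := (h1.pow (e / K)).mul_right (p ^ (e % K))
      rwa [one_pow, one_mul] at this
    exact (Nat.modEq_zero_iff_dvd.1 ((h2.add_right 1).symm.trans (Nat.modEq_zero_iff_dvd.2 he)))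
  set e₀ := e % K with he₀
  have hlt : e₀ < K := Nat.mod_lt _ hK
  by_cases h3 : 2 * e₀ ≤ K
  · exact ⟨e₀, h2, h3⟩
  · refine ⟨K - e₀, ?_, by omega⟩
    have h4 : p ^ K = p ^ e₀ * p ^ (K - e₀) := by rw [← pow_add, Nat.add_sub_cancel' hlt.le]
    have h5 : m ∣ (p ^ e₀ + 1) * (p ^ (K - e₀)) := Dvd.dvd.mul_right h2 _
    have h6 : (p ^ e₀ + 1) * (p ^ (K - e₀)) = p ^ K + p ^ (K - e₀) := by rw [h4]; ring
    rw [h6] at h5
    have h7 : p ^ K + p ^ (K - e₀) ≡ 1 + p ^ (K - e₀) [MOD m] := h1.add_right _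
    rw [add_comm]
    exact Nat.modEq_zero_iff_dvd.1 (h7.symm.trans (Nat.modEq_zero_iff_dvd.2 h5))

theorem num2 {p f n m g : ℕ} (hp : p.Prime) (hf : 0 < f) (hn : 3 ≤ n)
    (hm : g * m = ∑ i ∈ range n, (p ^ f) ^ i) (hg : g ∣ p ^ f - 1) (i j : ℕ) : ¬ m ∣ (p ^ f) ^ i + p ^ j := by
  intro h
  have hp2 : 2 ≤ p := hp.two_le
  have hq2 : 2 ≤ p ^ f := hp2.trans (Nat.le_self_pow hf.ne' p)
  rcases (by omega : n = 3 ∨ 4 ≤ n) with rfl | hn4
  · refine H53.HC.Gal.ns3 hp hf i j ?_
    have e1 : (p ^ f) ^ 2 + p ^ f + 1 = g * m := by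
      rw [hm, Finset.sum_range_succ, Finset.sum_range_succ, Finset.sum_range_one]
      ring
    rw [e1]
    exact Nat.mul_dvd_mul hg h
  · have hgle : g ≤ p ^ f - 1 := Nat.le_of_dvd (by omega) hg
    have h1 : m ∣ (p ^ f) ^ n - 1 := by
      rw [← geom_sum_mul_of_one_le (by omega : 1 ≤ p ^ f) n, ← hm]
      exact (dvd_mul_left m g).mul_right _
    have hqn : 1 ≤ (p ^ f) ^ n := Nat.one_le_pow _ _ (by omega)
    have h1' : p ^ (f * n) ≡ 1 [MOD m] := by
      rw [pow_mul]
      exact ((Nat.modEq_iff_dvd' hqn).2 h1).symm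
    have hmp : m.Coprime p := by
      rw [Nat.coprime_comm, hp.coprime_iff_not_dvd]
      intro h2
      have h3 := h2.trans h1
      have h4 : p ∣ (p ^ f) ^ n := (dvd_pow_self p hf.ne').trans (dvd_pow_self _ (by omega))
      have h5 := (Nat.dvd_sub h4 h3)
      rw [Nat.sub_sub_self hqn] at h5
      exact hp.one_lt.ne' (Nat.dvd_one.1 h5)
    have h2 : ∃ e, m ∣ p ^ e + 1 := by
      rw [← pow_mul] at h
      rcases le_total (f * i) j with h3 | h3
      · exact ⟨_, H53.HC.Gal.dvd_sub_of hmp h3 h⟩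
      · rw [add_comm] at h
        exact ⟨_, H53.HC.Gal.dvd_sub_of hmp h3 h⟩
    obtain ⟨e, he⟩ := h2
    obtain ⟨e₁, he₁, hle⟩ := num_red (K := f * n) (Nat.mul_pos hf (by omega)) h1' he
    have h3 : m ≤ p ^ e₁ + 1 := Nat.le_of_dvd (by positivity) he₁
    have h4 : (p ^ e₁) ^ 2 ≤ (p ^ f) ^ n := by
      rw [← pow_mul, ← pow_mul]
      exact Nat.pow_le_pow_right (by omega) (by omega)
    have h5 := pow_lt_geom (q := p ^ f) (n := n) (by omega)
    rw [← hm] at h5
    set q := p ^ f with hq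
    set x := p ^ e₁ with hx
    have h6 : g * m ≤ (q - 1) * (x + 1) := Nat.mul_le_mul hgle h3
    have h7 : q ^ 2 ≤ q ^ (n - 1) := Nat.pow_le_pow_right (by omega) (by omega)
    rcases le_total (q - 1) x with h8 | h8
    · have h9 : (q - 1) * (x + 1) ≤ q * x := by
        obtain ⟨y, hy⟩ := Nat.exists_eq_add_of_le hq2
        have e1 : q - 1 = y + 1 := by omega
        rw [e1] at h8 ⊢
        rw [hy]
        nlinarith
      have h10 : (q * x) ^ 2 ≤ (q ^ (n - 1)) ^ 2 := by
        rw [mul_pow]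
        calc q ^ 2 * x ^ 2 ≤ q ^ 2 * q ^ n := Nat.mul_le_mul_left _ h4
          _ = q ^ (n + 2) := by rw [← pow_add, add_comm]
          _ ≤ q ^ ((n - 1) * 2) := Nat.pow_le_pow_right (by omega) (by omega)
          _ = (q ^ (n - 1)) ^ 2 := by rw [pow_mul]
      have h11 := (Nat.pow_le_pow_iff_left two_ne_zero).1 h10
      omega
    · have h9 : (q - 1) * (x + 1) ≤ q ^ 2 := by
        rw [sq]
        exact Nat.mul_le_mul (by omega) (by omega)
      omega

end num

open Cfsg Cfsg.Agent.Characters Cfsg.Agent.H139.Cusp Cfsg.Agent.H53.HC.Gal Matrix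
open scoped ComplexConjugate

universe u w

attribute [local instance] fintypeHom fintypeSub finite_quot

section irr

variable {F : Type u} [Field F] [Finite F] {L : Type w} [Field L] [Finite L] [Algebra F L] {n : ℕ}

/-- **Irreducibility of the restriction to `SL_n`.** -/
theorem sl_isIrr (hn : Module.finrank F L = n) {θ : L →*₀ ℂ}
    (hreg : ∀ i, 0 < i → i < n → ∃ x : L, Algebra.norm F x = 1 ∧ θ x ≠ θ (x ^ Nat.card F ^ i)) :
    IsIrrCharacter (SpecialLinearGroup (Fin n) F) (psi (n := n) (F := F) L θ ∘ SpecialLinearGroup.toGL) := by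
  classical
  have hn0 : 0 < n := hn ▸ Module.finrank_pos
  have : Finite (Matrix (Fin n) (Fin n) F) := inferInstance
  have : Finite (GL (Fin n) F) := inferInstance
  have : Fintype (GL (Fin n) F) := Fintype.ofFinite _
  have : Fintype (SpecialLinearGroup (Fin n) F) := Fintype.ofFinite _
  have : Finite ((Fin n → F) →ₗ[F] (Fin n → F)) := DFunLike.finite _
  have : Fintype ((Fin n → F) →ₗ[F] (Fin n → F))ˣ := Fintype.ofFinite _
  have hq : 2 ≤ Nat.card F := Finite.one_lt_card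
  have hirr := psi_isIrr θ hn fun i hi hin => (hreg i hi hin).imp fun _ h => h.2
  refine Core.isIrr_of_classInner_self (Core.isCharacter_comp SpecialLinearGroup.toGL (Core.isIrr_isCharacter hirr)) ?_
  obtain ⟨μ, hμ⟩ := exists_theta F
  have h1 := sum_sl (n := n) hμ (fun g => psi L θ g * conj (psi L θ g))
  have h2 : ∀ a : ℕ, ∑ g : GL (Fin n) F, μ (Matrix.det (g : Matrix (Fin n) (Fin n) F)) ^ (a + 1) *
      (psi L θ g * conj (psi L θ g)) = (Nat.card (GL (Fin n) F) : ℂ) *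
      ((((Finset.range (Module.finrank F L)).filter fun i =>
      ∀ x : L, θ x = (twist θ (powTheta μ (a + 1) (Nat.succ_ne_zero a))) (x ^ Nat.card F ^ i)).card : ℕ) : ℂ) := by
    intro a
    have h3 := cusp_inner (V := Fin n → F) (twist θ (powTheta μ (a + 1) (Nat.succ_ne_zero a))) θ
      (by rw [Module.finrank_fin_fun, hn])
    rw [← classInner_gl, Core.classInner_def] at h3
    rw [← h3, ← mul_assoc, mul_inv_cancel₀ Core.card_ne_zero_complex, one_mul]
    refine Finset.sum_congr rfl fun g _ => ?_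
    rw [psi_twist θ _ hn, powTheta_apply, mul_assoc]
  have h3 : ∀ a ∈ Finset.range (Nat.card F - 1), (((Finset.range (Module.finrank F L)).filter fun i =>
      ∀ x : L, θ x = (twist θ (powTheta μ (a + 1) (Nat.succ_ne_zero a))) (x ^ Nat.card F ^ i)).card : ℕ) =
      if a = Nat.card F - 2 then 1 else 0 := by
    intro a ha
    rw [Finset.mem_range] at ha
    have hall : ∀ i ∈ Finset.range (Module.finrank F L), ((∀ x : L, θ x =
        (twist θ (powTheta μ (a + 1) (Nat.succ_ne_zero a))) (x ^ Nat.card F ^ i)) ↔ (i = 0 ∧ a = Nat.card F - 2)) := by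
      intro i hi
      rw [Finset.mem_range, hn] at hi
      constructor
      · intro h
        have hi0 : i = 0 := by
          by_contra h0
          obtain ⟨x, hx, hne⟩ := hreg i (Nat.pos_of_ne_zero h0) hi
          apply hne
          rw [h x, twist_apply, map_pow (Algebra.norm F), hx, one_pow, map_one, mul_one]
        subst hi0
        refine ⟨rfl, ?_⟩
        -- the norm is surjective
        obtain ⟨γ, hγ⟩ := IsCyclic.exists_ofOrder_eq_natCard (α := Fˣ)
        obtain ⟨x, hx⟩ := FiniteField.norm_surjective F L (γ : F)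
        have hx0 : x ≠ 0 := by
          rintro rfl
          rw [Algebra.norm_zero] at hx
          exact γ.ne_zero hx.symm
        have h4 := h x
        rw [pow_zero, pow_one, twist_apply, hx, powTheta_apply] at h4
        have h5 : θ x ≠ 0 := (map_ne_zero θ).2 hx0
        have h6 : μ ((γ : F)) ^ (a + 1) = 1 := by
          have : θ x * μ ((γ : F)) ^ (a + 1) = θ x * 1 := by rw [mul_one]; exact h4.symm
          exact mul_left_cancel₀ h5 this
        have h7 : γ ^ (a + 1) = 1 := by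
          apply Units.ext
          rw [Units.val_pow_eq_pow_val, Units.val_one]
          exact hμ (by rw [map_pow, h6, map_one])
        have h8 := orderOf_dvd_of_pow_eq_one h7
        rw [hγ, Nat.card_units] at h8
        have := Nat.le_of_dvd (by omega) h8
        omega
      · rintro ⟨rfl, rfl⟩ x
        rw [pow_zero, pow_one, twist_apply, powTheta_apply]
        by_cases hx : x = 0
        · rw [hx, map_zero, zero_mul]
        · have hx1 : Algebra.norm F x ≠ 0 := by rwa [Ne, Algebra.norm_eq_zero_iff]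
          have h4 : (Units.mk0 _ hx1) ^ (Nat.card F - 1) = 1 := by
            rw [← Nat.card_units]
            exact pow_card_eq_one'
          have h5 : (Algebra.norm F x) ^ (Nat.card F - 1) = 1 := congrArg Units.val h4
          have h6 : Nat.card F - 2 + 1 = Nat.card F - 1 := by omega
          rw [h6, ← map_pow, h5, map_one, mul_one]
    rw [Finset.filter_congr hall]
    split_ifs with h
    · rw [show ((Finset.range (Module.finrank F L)).filter fun i => i = 0 ∧ a = Nat.card F - 2) = {0} from by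
        ext i
        rw [Finset.mem_filter, Finset.mem_singleton, Finset.mem_range, hn]
        exact ⟨fun e => e.2.1, fun e => ⟨by omega, e, h⟩⟩]
      exact Finset.card_singleton 0
    · rw [Finset.card_eq_zero, Finset.filter_eq_empty_iff]
      exact fun i _ e => h e.2
  have h4 : (Nat.card (GL (Fin n) F) : ℂ) = ((Nat.card F - 1 : ℕ) : ℂ) *
      ∑ x : SpecialLinearGroup (Fin n) F, psi L θ (SpecialLinearGroup.toGL x) *
        conj (psi L θ (SpecialLinearGroup.toGL x)) := by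
    rw [← h1, Finset.sum_congr rfl fun a _ => h2 a, ← Finset.mul_sum]
    have h5 : ∑ a ∈ Finset.range (Nat.card F - 1), ((((Finset.range (Module.finrank F L)).filter fun i =>
      ∀ x : L, θ x = (twist θ (powTheta μ (a + 1) (Nat.succ_ne_zero a))) (x ^ Nat.card F ^ i)).card : ℕ) : ℂ) = 1 := by
      rw [← Nat.cast_sum, Finset.sum_congr rfl h3, Finset.sum_ite_eq', if_pos (Finset.mem_range.2 (by omega)),
        Nat.cast_one]
    rw [h5, mul_one]
  rw [H105.Og.card_gl_sl (by omega : 1 ≤ n), Nat.cast_mul] at h4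
  have h5 : ((Nat.card F - 1 : ℕ) : ℂ) ≠ 0 := by exact_mod_cast (by omega : Nat.card F - 1 ≠ 0)
  have h6 := mul_left_cancel₀ h5 h4
  rw [Core.classInner_def]
  change (Nat.card (SpecialLinearGroup (Fin n) F) : ℂ)⁻¹ * ∑ x : SpecialLinearGroup (Fin n) F,
    psi L θ (SpecialLinearGroup.toGL x) * conj (psi L θ (SpecialLinearGroup.toGL x)) = 1
  rw [← h6, inv_mul_cancel₀ Core.card_ne_zero_complex]

end irr

section main

variable {F : Type u} [Field F] [Finite F] {L : Type w} [Field L] [Finite L] [Algebra F L] {n : ℕ}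

theorem geom_card {q n : ℕ} (hq : 2 ≤ q) : (q - 1) * ∑ i ∈ Finset.range n, q ^ i = q ^ n - 1 := by
  rw [mul_comm]
  exact geom_sum_mul_of_one_le (by omega) n

/-- a generator and its power of norm one -/
theorem exists_gen (hn : Module.finrank F L = n) : ∃ γ : Lˣ, orderOf γ = Nat.card F ^ n - 1 ∧
    Algebra.norm F ((γ : L) ^ (Nat.card F - 1)) = 1 := by
  obtain ⟨γ, hγ⟩ := IsCyclic.exists_ofOrder_eq_natCard (α := Lˣ)
  refine ⟨γ, by rw [hγ, Nat.card_units, Module.natCard_eq_pow_finrank (K := F), hn], ?_⟩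
  rw [map_pow]
  have h1 : Algebra.norm F (γ : L) ≠ 0 := by
    rw [Ne, Algebra.norm_eq_zero_iff]
    exact γ.ne_zero
  have h3 : (Units.mk0 _ h1) ^ (Nat.card F - 1) = 1 := by
    rw [← Nat.card_units]
    exact pow_card_eq_one'
  exact congrArg Units.val h3

/-- exponents which are regular on the elements of norm one -/
theorem reg_of_exp (hn : Module.finrank F L = n) (hn3 : 3 ≤ n) {θ : L →*₀ ℂ} (hθ : Function.Injective θ) {a g m : ℕ}
    (ha : a ≠ 0) (hm : g * m = ∑ i ∈ Finset.range n, Nat.card F ^ i) (hg : g ∣ Nat.card F - 1)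
    (hga : Nat.gcd a (∑ i ∈ Finset.range n, Nat.card F ^ i) ∣ g) (i : ℕ) (hi : 0 < i) (hin : i < n) :
    ∃ x : L, Algebra.norm F x = 1 ∧ powTheta θ a ha x ≠ powTheta θ a ha (x ^ Nat.card F ^ i) := by
  have hq : 2 ≤ Nat.card F := Finite.one_lt_card
  have hg0 : 0 < g := Nat.pos_of_dvd_of_pos hg (by omega)
  obtain ⟨γ, hγ, hN⟩ := exists_gen hn
  refine ⟨_, hN, fun h => ?_⟩
  rw [powTheta_apply, powTheta_apply, ← map_pow, ← map_pow] at h
  have h1 : γ ^ ((Nat.card F - 1) * a) = γ ^ ((Nat.card F - 1) * Nat.card F ^ i * a) := by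
    apply Units.ext
    rw [Units.val_pow_eq_pow_val, Units.val_pow_eq_pow_val, pow_mul, pow_mul, pow_mul _ (Nat.card F - 1)]
    exact hθ h
  rw [pow_eq_pow_iff_modEq, hγ] at h1
  have hqi : 1 ≤ Nat.card F ^ i := Nat.one_le_pow _ _ (by omega)
  have h2 := (Nat.modEq_iff_dvd' (by
    calc (Nat.card F - 1) * a = (Nat.card F - 1) * 1 * a := by ring
      _ ≤ (Nat.card F - 1) * Nat.card F ^ i * a := Nat.mul_le_mul_right a (Nat.mul_le_mul_left _ hqi))).1 h1
  have h3 : (Nat.card F - 1) * Nat.card F ^ i * a - (Nat.card F - 1) * a =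
      (Nat.card F - 1) * (a * (Nat.card F ^ i - 1)) := by
    rw [Nat.mul_sub_one a, Nat.mul_sub]
    congr 1
    ring
  rw [h3, ← geom_card hq] at h2
  have h4 := Nat.dvd_of_mul_dvd_mul_left (by omega) h2
  exact num1 hq hn3 hm hg i hi hin (dvd_of_gcd hg0 hm hga h4)

theorem no_common' (hn : Module.finrank F L = n) (hn3 : 3 ≤ n) {θ : L →*₀ ℂ} (hθ : Function.Injective θ) {a g m : ℕ}
    (ha : a ≠ 0) (hm : g * m = ∑ i ∈ Finset.range n, Nat.card F ^ i) (hg : g ∣ Nat.card F - 1)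
    (hga : Nat.gcd a (∑ i ∈ Finset.range n, Nat.card F ^ i) ∣ g)
    {p : ℕ} [Fact p.Prime] [CharP F p] {σ : L ≃+* L} {j : ℕ}
    (hσ : ∀ x, σ x = x ^ p ^ j) {Θ' : L →*₀ ℂ} (hΘ' : ∀ x, Θ' x = conj (powTheta θ a ha (σ x)))
    [Fintype (SpecialLinearGroup (Fin n) F)]
    (h : classInner (psi (n := n) (F := F) L (powTheta θ a ha) ∘ SpecialLinearGroup.toGL)
      (psi L Θ' ∘ SpecialLinearGroup.toGL) ≠ 0) : False := by
  have hp : p.Prime := Fact.out
  have : Fintype F := Fintype.ofFinite F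
  obtain ⟨i, -, hi⟩ := exists_frob_eq hn _ _ h
  obtain ⟨f, hf⟩ : ∃ f : ℕ+, Fintype.card F = p ^ (f : ℕ) := by
    obtain ⟨f, -, hf⟩ := FiniteField.card F p
    exact ⟨f, hf⟩
  have hqf : Nat.card F = p ^ (f : ℕ) := by rw [Nat.card_eq_fintype_card, hf]
  have hq : 2 ≤ Nat.card F := Finite.one_lt_card
  have hg0 : 0 < g := Nat.pos_of_dvd_of_pos hg (by omega)
  obtain ⟨γ, hγ, hN⟩ := exists_gen hn
  have h1 := hi _ hN
  rw [hΘ', conj_theta_eq, powTheta_apply, powTheta_apply, hσ, map_inv₀, ← pow_mul, ← pow_mul] at h1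
  have h2 : θ ((γ : L) ^ ((Nat.card F - 1) * (a * (Nat.card F ^ i + p ^ j)))) = 1 := by
    have e1 : (Nat.card F - 1) * (a * (Nat.card F ^ i + p ^ j)) =
        ((Nat.card F - 1) * Nat.card F ^ i) * a + ((Nat.card F - 1) * p ^ j) * a := by ring
    rw [e1, pow_add, map_mul, pow_mul _ ((Nat.card F - 1) * Nat.card F ^ i), pow_mul _ ((Nat.card F - 1) * p ^ j),
      map_pow θ (_ ^ _) a, map_pow θ (_ ^ _) a, ← h1, inv_pow]
    refine inv_mul_cancel₀ (pow_ne_zero _ ?_)
    rw [Ne, map_eq_zero θ]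
    exact pow_ne_zero _ γ.ne_zero
  have h3 : γ ^ ((Nat.card F - 1) * (a * (Nat.card F ^ i + p ^ j))) = 1 := by
    apply Units.ext
    rw [Units.val_pow_eq_pow_val, Units.val_one]
    exact hθ (by rw [h2, map_one])
  have h4 := orderOf_dvd_of_pow_eq_one h3
  rw [hγ, ← geom_card hq] at h4
  have h5 := Nat.dvd_of_mul_dvd_mul_left (by omega) h4
  have h6 := dvd_of_gcd hg0 hm hga h5
  rw [hqf] at h6 hm hg
  exact num2 hp f.2 hn3 hm hg i j h6

/-- **No invariance under the graph automorphisms.** -/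
theorem not_swap' (hn : Module.finrank F L = n) (hn3 : 3 ≤ n) {θ : L →*₀ ℂ} (hθ : Function.Injective θ) {a g m : ℕ}
    (ha : a ≠ 0) (hm : g * m = ∑ i ∈ Finset.range n, Nat.card F ^ i) (hg : g ∣ Nat.card F - 1)
    (hga : Nat.gcd a (∑ i ∈ Finset.range n, Nat.card F ^ i) ∣ g)
    (τ : F ≃+* F) (C : GL (Fin n) F) :
    (psi (n := n) (F := F) L (powTheta θ a ha) ∘ SpecialLinearGroup.toGL) ∘ H622.Levi.swapHom C τ ≠
      psi (n := n) (F := F) L (powTheta θ a ha) ∘ SpecialLinearGroup.toGL := by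
  classical
  intro hinv
  have : Fintype F := Fintype.ofFinite F
  have : Fintype (SpecialLinearGroup (Fin n) F) := Fintype.ofFinite _
  obtain ⟨p, hp'⟩ := CharP.exists F
  have : Fact p.Prime := ⟨CharP.char_is_prime F p⟩
  obtain ⟨j, hj⟩ := exists_frob_pow (p := p) τ
  obtain ⟨σ, hσ, hστ⟩ := exists_ext (L := L) hj
  set Θ := powTheta θ a ha with hΘ
  let Θ₁ : L →*₀ ℂ := Θ.comp (σ : L →+* L).toMonoidWithZeroHom
  have hΘ₁ : ∀ x, Θ (σ x) = Θ₁ x := fun x => rfl
  have hη : IsIrrCharacter _ (psi (n := n) (F := F) L Θ ∘ SpecialLinearGroup.toGL) :=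
    sl_isIrr hn (reg_of_exp hn hn3 hθ ha hm hg hga)
  refine no_common' hn hn3 hθ ha hm hg hga hσ (Θ' := conjTheta Θ₁) (fun x => rfl) ?_
  have h1 : (psi (n := n) (F := F) L Θ ∘ SpecialLinearGroup.toGL) ∘ H622.Levi.swapHom C τ =
      psi L (conjTheta Θ₁) ∘ SpecialLinearGroup.toGL := by
    funext x
    rw [Function.comp_apply, Function.comp_apply, Function.comp_apply, ← psi_inv hn Θ₁, ← map_inv]
    have h2 : psi L Θ (SpecialLinearGroup.toGL (H622.Levi.swapHom C τ x)) =
        cuspMat L Θ ((((x⁻¹ : SpecialLinearGroup (Fin n) F) : Matrix (Fin n) (Fin n) F).map τ).transpose) := by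
      let T : SpecialLinearGroup (Fin n) F := ⟨(((x⁻¹ : SpecialLinearGroup (Fin n) F) :
        Matrix (Fin n) (Fin n) F).map τ).transpose, by
          have h3 : (((x⁻¹ : SpecialLinearGroup (Fin n) F) : Matrix (Fin n) (Fin n) F).map τ).det =
              τ (((x⁻¹ : SpecialLinearGroup (Fin n) F) : Matrix (Fin n) (Fin n) F).det) :=
            (RingHom.map_det (τ : F →+* F) _).symm
          rw [Matrix.det_transpose, h3, (x⁻¹).2, map_one]⟩
      have h4 : ((C * SpecialLinearGroup.toGL T * C⁻¹ : GL (Fin n) F) : Matrix (Fin n) (Fin n) F) =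
          (H622.Levi.swapHom C τ x).1 := rfl
      have h5 := cuspMat_conj Θ C (SpecialLinearGroup.toGL T)
      rw [h4] at h5
      exact h5
    rw [h2, cuspMat_transpose, cuspMat_semilinear hn hστ hΘ₁]
    rfl
  rw [← h1, hinv, Core.classInner_irr_self hη]
  exact one_ne_zero

theorem geom_modEq {q n : ℕ} (hq : 1 ≤ q) : ∑ i ∈ Finset.range n, q ^ i ≡ n [MOD q - 1] := by
  have h1 : q ≡ 1 [MOD q - 1] := ((Nat.modEq_iff_dvd' hq).2 dvd_rfl).symm
  induction n with
  | zero => rfl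
  | succ n ih =>
    rw [Finset.sum_range_succ]
    have := h1.pow n
    rw [one_pow] at this
    exact ih.add this

end main

/-- **Cuspidal irreducible characters of `SL_n(F)`, `n ≥ 3`, over every character of the centre, not invariant under the
graph automorphisms.** -/
theorem exists_sl {F : Type} [Field F] [Finite F] {m : ℕ} (hm : 2 ≤ m)
    (μ : Subgroup.center (SpecialLinearGroup (Fin (m + 1)) F) →* ℂˣ) :
    ∃ η : SpecialLinearGroup (Fin (m + 1)) F → ℂ, IsIrrCharacter _ η ∧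
      (∀ (z) (hz : z ∈ Subgroup.center (SpecialLinearGroup (Fin (m + 1)) F)) (x), η (z * x) = (μ ⟨z, hz⟩ : ℂˣ) * η x) ∧
      (∀ i : Fin m, ∀ [Fintype (H622.Levi.UU F i)], ∑ g : H622.Levi.UU F i, η g = 0) ∧
      η 1 = ((∏ i ∈ Finset.range m, (Nat.card F ^ (i + 1) - 1) : ℕ) : ℂ) ∧
      ∀ (C : GL (Fin (m + 1)) F) (τ : F ≃+* F), η ∘ H622.Levi.swapHom C τ ≠ η := by
  classical
  have hq : 2 ≤ Nat.card F := Finite.one_lt_card
  obtain ⟨L, _, _, _, hL⟩ : ∃ (L : Type) (_ : Field L) (_ : Algebra F L) (_ : Finite L),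
      Module.finrank F L = m + 1 := by
    obtain ⟨p, hp⟩ := CharP.exists F
    have : Fact p.Prime := ⟨CharP.char_is_prime F p⟩
    have : NeZero (m + 1) := ⟨by omega⟩
    exact ⟨FiniteField.Extension F p (m + 1), inferInstance, inferInstance, inferInstance,
      FiniteField.finrank_extension F p (m + 1)⟩
  obtain ⟨θ, hθ⟩ := exists_theta L
  let E := SpecialLinearGroup.center_equiv_rootsOfUnity' (R := F) (0 : Fin (m + 1))
  obtain ⟨ζ, hζ⟩ := IsCyclic.exists_generator (α := rootsOfUnity (Fintype.card (Fin (m + 1))) F)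
  let φ : rootsOfUnity (Fintype.card (Fin (m + 1))) F →* ℂ := (θ : L →* ℂ).comp
    ((algebraMap F L : F →* L).comp ((Units.coeHom F).comp (rootsOfUnity (Fintype.card (Fin (m + 1))) F).subtype))
  have hφ : Function.Injective φ := fun x y hxy =>
    Subtype.ext (Units.ext ((algebraMap F L).injective (hθ hxy)))
  have hφv : ∀ x, φ x = θ (algebraMap F L ((x : Fˣ) : F)) := fun x => rfl
  set g := orderOf ζ with hg
  have hg0 : 0 < g := orderOf_pos ζ
  have hg1 : g ∣ m + 1 := by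
    apply orderOf_dvd_of_pow_eq_one
    apply Subtype.ext
    have h0 : ((ζ : Fˣ)) ^ Fintype.card (Fin (m + 1)) = 1 := (mem_rootsOfUnity _ _).1 ζ.2
    have h1 : ((ζ ^ Fintype.card (Fin (m + 1)) : rootsOfUnity (Fintype.card (Fin (m + 1))) F) : Fˣ) = 1 := h0
    have h2 : Fintype.card (Fin (m + 1)) = m + 1 := Fintype.card_fin _
    calc ((ζ ^ (m + 1) : rootsOfUnity (Fintype.card (Fin (m + 1))) F) : Fˣ) =
        ((ζ ^ Fintype.card (Fin (m + 1)) : rootsOfUnity (Fintype.card (Fin (m + 1))) F) : Fˣ) := by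
          congr 2
          exact h2.symm
      _ = 1 := h1
  have hg2 : g ∣ Nat.card F - 1 := by
    apply orderOf_dvd_of_pow_eq_one
    apply Subtype.ext
    rw [← Nat.card_units]
    exact pow_card_eq_one'
  have hgN : g ∣ ∑ i ∈ Finset.range (m + 1), Nat.card F ^ i := by
    have h1 := (geom_modEq (q := Nat.card F) (n := m + 1) (by omega)).of_dvd hg2
    exact Nat.modEq_zero_iff_dvd.1 (h1.trans (Nat.modEq_zero_iff_dvd.2 hg1))
  obtain ⟨m', hm'⟩ := hgN
  -- the exponent
  have hprim : IsPrimitiveRoot (φ ζ) g := by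
    have h1 : orderOf (φ ζ) = orderOf ζ := orderOf_injective φ hφ ζ
    rw [hg, ← h1]
    exact IsPrimitiveRoot.orderOf _
  have : NeZero g := ⟨hg0.ne'⟩
  have h1 : ((μ (E.symm ζ) : ℂˣ) : ℂ) ^ g = 1 := by
    rw [← Units.val_pow_eq_pow_val, ← map_pow, ← map_pow, hg, pow_orderOf_eq_one, map_one, map_one, Units.val_one]
  obtain ⟨e, -, he⟩ := hprim.eq_pow_of_pow_eq_one h1
  have hN1 : 1 < ∑ i ∈ Finset.range (m + 1), Nat.card F ^ i :=
    lt_of_le_of_lt (Nat.one_le_pow _ _ (by omega)) (pow_lt_geom (q := Nat.card F) (n := m + 1) (by omega))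
  obtain ⟨a, ha0, ha, hga⟩ := exists_exp hN1 (Dvd.intro _ hm'.symm) e
  have hφa : φ ζ ^ a = ((μ (E.symm ζ) : ℂˣ) : ℂ) := by
    rw [← he]
    exact pow_eq_pow_of_modEq ha hprim.pow_eq_one
  have hreg := reg_of_exp hL (by omega) hθ ha0 hm'.symm hg2 hga
  refine ⟨psi (n := m + 1) (F := F) L (powTheta θ a ha0) ∘ SpecialLinearGroup.toGL, sl_isIrr hL hreg, ?_, ?_, ?_, ?_⟩
  · intro z hz x
    obtain ⟨k, hk : ζ ^ k = E ⟨z, hz⟩⟩ := mem_powers_iff_mem_zpowers.2 (hζ (E ⟨z, hz⟩))
    obtain ⟨r, hr1, hr⟩ := Matrix.SpecialLinearGroup.mem_center_iff.1 hz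
    have hr0 : r ≠ 0 := by
      rintro rfl
      rw [Fintype.card_fin, zero_pow (by omega)] at hr1
      exact zero_ne_one hr1
    have hE : ((E ⟨z, hz⟩ : Fˣ) : F) = r := by
      change z.1 0 0 = r
      rw [← hr]
      simp
    have hs : SpecialLinearGroup.toGL z = GeneralLinearGroup.scalar (Fin (m + 1)) (Units.mk0 r hr0) := by
      apply Units.ext
      change z.1 = _
      rw [← hr]
      rfl
    rw [Function.comp_apply, Function.comp_apply, map_mul, hs, psi_scalar _ hL, powTheta_apply]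
    congr 1
    have h2 : E.symm (E ⟨z, hz⟩) = ⟨z, hz⟩ := E.symm_apply_apply _
    have e4 : ((μ ⟨z, hz⟩ : ℂˣ) : ℂ) = (φ ζ ^ a) ^ k := by
      rw [← h2, ← hk, map_pow, map_pow, Units.val_pow_eq_pow_val, ← hφa]
    rw [e4, Units.val_mk0, ← hE, ← hφv, ← hk, map_pow, ← pow_mul, ← pow_mul, mul_comm]
  · intro i _
    exact H622.Levi.sum_UU (psi_isClass L _) (psi_isCusp L _) i
  · rw [Function.comp_apply, map_one, psi_one L _ (by omega)]
    rfl
  · intro C τ
    exact not_swap' hL (by omega) hθ ha0 hm'.symm hg2 hga τ C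

end Cfsg.Agent.H491.RIM
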